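import Cfsg.Agent.H699.EP.Row5827
import Cfsg.Agent.H682.EP.AdRow
import Cfsg.Agent.H689.EP.L27Row
import Cfsg.Agent.H87.EPR.TwelveCard
import Cfsg.Agent.S0255

/-!
# S3499-IV, row S5827 (helper699): the linear half is closed

`adj_psl3` (helper682) for `q ≥ 5`, `psl27_false` (helper689) for `q = 2`.
-/

set_option autoImplicit false

namespace Cfsg.Agent.H699.EP

open Subgroup Cfsg Cfsg.Geo Cfsg.Agent.H284 Cfsg.Agent.H419.EP

theorem ownL {Q : Type} [Group Q] [Finite Q] (hs : IsSimpleGroup Q) {A : Subgroup Q} {Γ : Subgroup (MulAut Q)}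
    (h : EPT A Γ) {F : Type} [Field F] [Fintype F] {Qf : (Fin 8 → F) → F} (m : Model Q (omegaGL Qf))
    (nd : IsNondegenerateQuadraticForm Qf) (h3 : Fintype.card F % 3 = 2)
    {P : Subgroup (Matrix.GeneralLinearGroup (Fin 8) F)} (hP : IsResidualCore (m.hat A) P)
    (e : (P ⧸ (scalars (Fin 8) F).subgroupOf P) ≃* Matrix.ProjectiveSpecialLinearGroup (Fin 3) F) : False := by
  by_cases h2 : Fintype.card F = 2
  · obtain ⟨e2⟩ := Cfsg.Agent.S0255.result (F := ZMod 7) (K := F) (ZMod.card 7) h2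
    obtain ⟨N, h1, h4, h5, ⟨f⟩⟩ := (hasSoc_of_core m hP).congr (e.trans e2.symm)
    have : Fact (Nat.Prime 7) := ⟨by norm_num⟩
    refine Cfsg.Agent.H689.EP.psl27_false h h1 h4 (F := ZMod 7) (ZMod.card 7) f h5 (Or.inl ?_)
    have h6 := Cfsg.Agent.H87.EPR.card_model_ge m nd (k := 4) (by norm_num) (by rw [Fintype.card_fin]) (q := 2)
      (by rw [h2])
    have h7 : (2 : ℕ) ^ (4 * (4 - 1)) * (2 ^ 4 - 1) * ∏ i ∈ Finset.range (4 - 1), (2 ^ (2 * (i + 1)) - 1) = 174182400 := by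
      decide
    rw [h7] at h6
    omega
  · obtain ⟨p, hpF⟩ := CharP.exists F
    have hp : Fact p.Prime := ⟨CharP.char_is_prime F p⟩
    refine Cfsg.Agent.H682.EP.adj_psl3 hs h m (by rw [Fintype.card_fin]; norm_num) (by rw [Fintype.card_fin]; norm_num)
      nd hP p ?_ (E := F) ?_ e
    · rintro rfl
      obtain ⟨k, -, hk⟩ := FiniteField.card F 3
      have h4 : 3 ∣ Fintype.card F := by
        rw [hk]
        exact dvd_pow_self 3 k.ne_zero
      omega
    · rw [Nat.card_eq_fintype_card]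
      have h4 : 1 < Fintype.card F := Fintype.one_lt_card
      omega

/-- **Row S5827**: only the unitary half is left. -/
theorem row_of_ownU (S : St5827) {Q : Type} [Group Q] [Finite Q] (hs : IsSimpleGroup Q) {A : Subgroup Q}
    {Γ : Subgroup (MulAut Q)} (h : EPT A Γ) {F : Type} [Field F] [Fintype F] {Qf : (Fin 8 → F) → F}
    (m : Model Q (omegaGL Qf)) (nd : IsNondegenerateQuadraticForm Qf) (minus : ¬ IsPlusTypeOn Qf ⊤)
    (hres : InOrthogonalResidualClass (m.hat A))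
    (ownU : ∀ (K : Type) [Field K] [Fintype K], Fintype.card K = Fintype.card F ^ 2 → Fintype.card F % 3 = 1 →
      ∀ P : Subgroup (Matrix.GeneralLinearGroup (Fin 8) F), IsResidualCore (m.hat A) P →
      ((P ⧸ (scalars (Fin 8) F).subgroupOf P) ≃* PSU 3 K (Fintype.card F)) → False) : False := by
  obtain ⟨P, hP, (⟨⟨e⟩, h3⟩ | ⟨⟨K, i1, i2, hK, ⟨e⟩⟩, h3⟩)⟩ := S Qf nd minus (m.hat A) (m.isMaximalIn h.max) hres
  · exact ownL hs h m nd h3 hP e
  · exact ownU K hK h3 P hP e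

end Cfsg.Agent.H699.EP
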