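import Cfsg.Agent.H419.EP.Soc
import Cfsg.Agent.H419.EP.Targets

/-!
# S3499-IV, row S5827: the residual class of `Ω₈⁻(q)` (helper699)

The socle is `L₃(q)` (`q ≡ 2 mod 3`) or `U₃(q)` (`q ≡ 1 mod 3`), both in the own characteristic (adjoint module).

* `St5827` : the statement of S5827;
* `row_of_own` : reduction to the two own characteristic cases.
-/

set_option autoImplicit false

namespace Cfsg.Agent.H699.EP

open Subgroup Cfsg Cfsg.Geo Cfsg.Agent.H284 Cfsg.Agent.H419.EP

/-- the statement of S5827 (for `F : Type`) -/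
def St5827 : Prop := ∀ {F : Type} [Field F] [Fintype F] (Q : (Fin 8 → F) → F), IsNondegenerateQuadraticForm Q →
    ¬ IsPlusTypeOn Q ⊤ → ∀ (H : Subgroup (Matrix.GeneralLinearGroup (Fin 8) F)), IsMaximalIn (omegaGL Q) H →
    InOrthogonalResidualClass H →
    ∃ P : Subgroup (Matrix.GeneralLinearGroup (Fin 8) F), IsResidualCore H P ∧
    ((Nonempty ((P ⧸ (scalars (Fin 8) F).subgroupOf P) ≃* Matrix.ProjectiveSpecialLinearGroup (Fin 3) F) ∧
        Fintype.card F % 3 = 2) ∨
     ((∃ (K : Type) (_ : Field K) (_ : Fintype K), Fintype.card K = Fintype.card F ^ 2 ∧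
        Nonempty ((P ⧸ (scalars (Fin 8) F).subgroupOf P) ≃* PSU 3 K (Fintype.card F))) ∧ Fintype.card F % 3 = 1))

/-- **Row S5827**, reduction to the own characteristic. -/
theorem row_of_own (S : St5827) {Q : Type} [Group Q] [Finite Q] {A : Subgroup Q} {Γ : Subgroup (MulAut Q)}
    (h : EPT A Γ) {F : Type} [Field F] [Fintype F] {Qf : (Fin 8 → F) → F} (m : Model Q (omegaGL Qf))
    (nd : IsNondegenerateQuadraticForm Qf) (minus : ¬ IsPlusTypeOn Qf ⊤)
    (hres : InOrthogonalResidualClass (m.hat A))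
    (ownL : Fintype.card F % 3 = 2 → HasSoc A (Matrix.ProjectiveSpecialLinearGroup (Fin 3) F) → False)
    (ownU : ∀ (K : Type) [Field K] [Fintype K], Fintype.card K = Fintype.card F ^ 2 → Fintype.card F % 3 = 1 →
      HasSoc A (PSU 3 K (Fintype.card F)) → False) : False := by
  obtain ⟨P, hP, (⟨⟨e⟩, h3⟩ | ⟨⟨K, i1, i2, hK, ⟨e⟩⟩, h3⟩)⟩ := S Qf nd minus (m.hat A) (m.isMaximalIn h.max) hres
  · exact ownL h3 ((hasSoc_of_core m hP).congr e)
  · exact ownU K hK h3 ((hasSoc_of_core m hP).congr e)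

end Cfsg.Agent.H699.EP
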